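import Mathlib
import Cfsg.Agent.Lib.Core.Factor
import Cfsg.Agent.Lib.Core.Conj
import Cfsg.Agent.Lib.Core.Product
import Cfsg.Agent.Lib.Core.Batch3
import Cfsg.Agent.Lib.Core.MinNormal2
import Cfsg.Agent.Lib.Char.Burnside

/-!
# The converse of Hall's theorem.
-/

set_option autoImplicit false

namespace Cfsg.Agent.Lib.Hall

open Cfsg Subgroup Cfsg.Agent.Lib.Core
open scoped Pointwise

universe u

/-- `G` has a `p`-complement for each prime `p`. -/
def HallCompl (G : Type*) [Group G] : Prop :=
  ∀ p : ℕ, p.Prime → ∃ H : Subgroup G, H.index = p ^ (Nat.card G).factorization p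

theorem not_dvd_card_of_index_eq {G : Type*} [Group G] [Finite G] {p : ℕ} (hp : p.Prime) {H : Subgroup G}
    (h : H.index = p ^ (Nat.card G).factorization p) : ¬ p ∣ Nat.card H := by
  intro hd
  have h1 := H.card_mul_index
  rw [h] at h1
  set v := (Nat.card G).factorization p with hv
  obtain ⟨c, hc⟩ := hd
  have h2 : p ^ (v + 1) ∣ Nat.card G := ⟨c, by rw [← h1, hc, pow_succ]; ring⟩
  have h3 := (hp.pow_dvd_iff_le_factorization (Nat.card_pos.ne')).mp h2
  omega

theorem hallCompl_quotient {G : Type*} [Group G] [Finite G] (h : HallCompl G) (N : Subgroup G) [N.Normal] :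
    HallCompl (G ⧸ N) := by
  intro p hp
  obtain ⟨H, hH⟩ := h p hp
  let π := QuotientGroup.mk' N
  have hπ : Function.Surjective π := QuotientGroup.mk'_surjective N
  refine ⟨H.map π, ?_⟩
  have h1 : (H.map π).index ∣ H.index := Subgroup.index_map_dvd H hπ
  rw [hH] at h1
  obtain ⟨b, -, hb⟩ := (Nat.dvd_prime_pow hp).mp h1
  have h2 : Nat.card (H.map π) ∣ Nat.card H :=
    Subgroup.card_dvd_of_surjective (π.subgroupMap H) (π.subgroupMap_surjective H)
  have h3 : ¬ p ∣ Nat.card (H.map π) := fun hd => not_dvd_card_of_index_eq hp hH (hd.trans h2)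
  have h4 := (H.map π).card_mul_index
  rw [hb] at h4 ⊢
  have h5 : (Nat.card (G ⧸ N)).factorization p = b := by
    rw [← h4, Nat.factorization_mul (Nat.card_pos.ne') (pow_ne_zero _ hp.ne_zero), hp.factorization_pow,
      Finsupp.add_apply, Nat.factorization_eq_zero_of_not_dvd h3, zero_add, Finsupp.single_eq_same]
  rw [h5]

theorem hallCompl_subgroup {G : Type*} [Group G] [Finite G] (h : HallCompl G) {p₁ : ℕ} (hp₁ : p₁.Prime)
    (H₁ : Subgroup G) (hH₁ : H₁.index = p₁ ^ (Nat.card G).factorization p₁) : HallCompl H₁ := by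
  intro q hq
  by_cases hqp : q = p₁
  · subst hqp
    refine ⟨⊤, ?_⟩
    rw [Subgroup.index_top, Nat.factorization_eq_zero_of_not_dvd (not_dvd_card_of_index_eq hq hH₁), pow_zero]
  obtain ⟨Y, hY⟩ := h q hq
  refine ⟨Y.subgroupOf H₁, ?_⟩
  have hcop : Y.index.Coprime H₁.index := by
    rw [hY, hH₁]
    exact Nat.coprime_pow_primes _ _ hq hp₁ hqp
  have h1 : Y.relIndex H₁ = Y.index := relIndex_eq_index_of_mul (exists_mul_of_coprime_index Y H₁ hcop)
  have h2 : (Y.subgroupOf H₁).index = Y.relIndex H₁ := rfl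
  rw [h2, h1, hY]
  have h3 := H₁.card_mul_index
  have h4 : (Nat.card G).factorization q = (Nat.card H₁).factorization q := by
    rw [← h3, hH₁, Nat.factorization_mul (Nat.card_pos.ne') (pow_ne_zero _ hp₁.ne_zero), hp₁.factorization_pow]
    simp [Finsupp.single_apply, Ne.symm hqp]
  rw [h4]

theorem eq_prime_pow_mul_prime_pow {p q n : ℕ} (hp : p.Prime) (hq : q.Prime) (hpq : p ≠ q) (hn : n ≠ 0)
    (h : ∀ r : ℕ, r.Prime → r ∣ n → r = p ∨ r = q) : n = p ^ n.factorization p * q ^ n.factorization q := by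
  apply Nat.eq_of_factorization_eq hn (Nat.mul_ne_zero (pow_ne_zero _ hp.ne_zero) (pow_ne_zero _ hq.ne_zero))
  intro r
  rw [Nat.factorization_mul (pow_ne_zero _ hp.ne_zero) (pow_ne_zero _ hq.ne_zero), hp.factorization_pow,
    hq.factorization_pow]
  simp only [Finsupp.add_apply, Finsupp.single_apply]
  by_cases h1 : r = p
  · subst h1
    simp [hpq.symm]
  by_cases h2 : r = q
  · subst h2
    simp [hpq]
  rw [if_neg (Ne.symm h1), if_neg (Ne.symm h2)]
  by_cases hr : r.Prime
  · have : ¬ r ∣ n := fun hd => (h r hr hd).elim h1 h2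
    simp [Nat.factorization_eq_zero_of_not_dvd this]
  · simp [Nat.factorization_eq_zero_of_not_prime n hr]

/-- **Hall's converse.** -/
theorem isSolvable_of_hallCompl : ∀ (n : ℕ) (G : Type u) [Group G] [Finite G], Nat.card G = n → HallCompl G →
    Group.IsSolvable G := by
  intro n
  induction n using Nat.strong_induction_on with
  | _ n ih =>
    intro G _ _ hn h
    have hn0 : Nat.card G ≠ 0 := Nat.card_pos.ne'
    -- the two-prime case
    by_cases h3 : ∃ p₁ p₂ p₃ : ℕ, p₁.Prime ∧ p₂.Prime ∧ p₃.Prime ∧ p₁ ≠ p₂ ∧ p₁ ≠ p₃ ∧ p₂ ≠ p₃ ∧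
        p₁ ∣ Nat.card G ∧ p₂ ∣ Nat.card G ∧ p₃ ∣ Nat.card G
    · obtain ⟨p₁, p₂, p₃, hp₁, hp₂, hp₃, h12, h13, h23, hd₁, hd₂, hd₃⟩ := h3
      have hsub : ∀ (p : ℕ) (hp : p.Prime) (Y : Subgroup G), p ∣ Nat.card G →
          Y.index = p ^ (Nat.card G).factorization p → Group.IsSolvable Y := by
        intro p hp Y hd hY
        refine ih (Nat.card Y) ?_ Y rfl (hallCompl_subgroup h hp Y hY)
        rw [← hn]
        have h1 := Y.card_mul_index
        rw [hY] at h1
        have h2 : 1 < p ^ (Nat.card G).factorization p :=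
          Nat.one_lt_pow (hp.factorization_pos_of_dvd hn0 hd).ne' hp.one_lt
        have h4 : 0 < Nat.card Y := Nat.card_pos
        nlinarith
      obtain ⟨H₁, hH₁⟩ := h p₁ hp₁
      have hS₁ : Group.IsSolvable H₁ := hsub p₁ hp₁ H₁ hd₁ hH₁
      have hd₂H₁ : p₂ ∣ Nat.card H₁ := by
        have h1 := H₁.card_mul_index
        rw [hH₁] at h1
        rw [← h1] at hd₂
        exact Nat.Coprime.dvd_of_dvd_mul_right (Nat.Coprime.pow_right _ ((Nat.coprime_primes hp₂ hp₁).mpr h12.symm)) hd₂
      have hbot : (⊤ : Subgroup H₁) ≠ ⊥ := by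
        intro h4
        have h5 := congrArg (fun X : Subgroup H₁ => Nat.card X) h4
        simp only [Subgroup.card_top, Subgroup.card_bot] at h5
        rw [h5] at hd₂H₁
        exact hp₂.not_dvd_one hd₂H₁
      obtain ⟨N, hNn, hN1, -, hNmin⟩ := exists_minimal_normal_le (inferInstance : (⊤ : Subgroup H₁).Normal) hbot
      obtain ⟨hNc, r, hr, hNr⟩ := minimal_normal_elementary N hN1 hNmin
      have hrf : Fact r.Prime := ⟨hr⟩
      have hNpg : IsPGroup r N := by
        intro x
        refine ⟨1, ?_⟩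
        apply Subtype.ext
        simpa using hNr x x.2
      -- choice of the second prime
      obtain ⟨p', hp', hdp', hp'1, hp'r⟩ : ∃ p' : ℕ, p'.Prime ∧ p' ∣ Nat.card G ∧ p' ≠ p₁ ∧ p' ≠ r := by
        by_cases h4 : p₂ = r
        · exact ⟨p₃, hp₃, hd₃, h13.symm, fun h5 => h23 (h4.trans h5.symm)⟩
        · exact ⟨p₂, hp₂, hd₂, h12.symm, h4⟩
      obtain ⟨H', hH'⟩ := h p' hp'
      have hS' : Group.IsSolvable H' := hsub p' hp' H' hdp' hH'
      have hcop : H'.index.Coprime H₁.index := by
        rw [hH', hH₁]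
        exact Nat.coprime_pow_primes _ _ hp' hp₁ hp'1
      -- `N ≤ H'`
      have hNH' : N.map H₁.subtype ≤ H' := by
        let Y := H'.subgroupOf H₁
        have h1 : H'.relIndex H₁ = H'.index := relIndex_eq_index_of_mul (exists_mul_of_coprime_index H' H₁ hcop)
        have h2 : Y.index = H'.index := h1
        have h4 : ¬ r ∣ Y.index := by
          rw [h2, hH']
          intro h5
          exact hp'r ((Nat.prime_dvd_prime_iff_eq hr hp').mp (hr.dvd_of_dvd_pow h5)).symm
        obtain ⟨g, hg⟩ := exists_conj_le_of_not_dvd_index hNpg h4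
        rw [conj_smul_eq_self_of_normal] at hg
        rintro _ ⟨x, hx, rfl⟩
        exact hg hx
      let N' := N.map H₁.subtype
      have hN'ne : N' ≠ ⊥ := by
        intro h4
        rw [Subgroup.map_eq_bot_iff_of_injective _ H₁.subtype_injective] at h4
        exact hN1 h4
      let K := Subgroup.normalClosure (N' : Set G)
      have hKn : K.Normal := Subgroup.normalClosure_normal
      have hKH' : K ≤ H' := by
        rw [show K = Subgroup.closure (Group.conjugatesOfSet (N' : Set G)) from rfl, Subgroup.closure_le]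
        intro z hz
        rw [Group.mem_conjugatesOfSet_iff] at hz
        obtain ⟨x, hx, hxz⟩ := hz
        obtain ⟨c, rfl⟩ := isConj_iff.mp hxz
        obtain ⟨u, hu, w, hw, rfl⟩ := exists_mul_of_coprime_index H' H₁ hcop c
        have hxm : w * x * w⁻¹ ∈ N' := by
          obtain ⟨y, hy, rfl⟩ := hx
          have h4 : (⟨w, hw⟩ : H₁) * y * (⟨w, hw⟩ : H₁)⁻¹ ∈ N := hNn.conj_mem y hy ⟨w, hw⟩
          exact ⟨_, h4, by simp⟩
        have h5 : u * w * x * (u * w)⁻¹ = u * (w * x * w⁻¹) * u⁻¹ := by group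
        rw [h5]
        exact H'.mul_mem (H'.mul_mem hu (hNH' hxm)) (H'.inv_mem hu)
      have hKne : K ≠ ⊥ := by
        intro h4
        apply hN'ne
        rw [eq_bot_iff, ← h4]
        exact Subgroup.subset_normalClosure
      have hKs : Group.IsSolvable K :=
        Group.isSolvable_of_isSolvable_injective (f := Subgroup.inclusion hKH') (Subgroup.inclusion_injective hKH')
      have hlt : Nat.card (G ⧸ K) < n := by
        rw [← hn]
        have h1 := K.card_mul_index
        have h4 : Nat.card (G ⧸ K) = K.index := rfl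
        rw [h4]
        have h5 : 0 < K.index := Nat.pos_of_ne_zero Subgroup.index_ne_zero_of_finite
        have h6 : 1 < Nat.card K := by
          have := Nat.card_pos (α := K)
          by_contra h7
          exact hKne (Subgroup.eq_bot_of_card_eq K (by omega))
        nlinarith
      have hQ : Group.IsSolvable (G ⧸ K) := ih _ hlt (G ⧸ K) rfl (hallCompl_quotient h K)
      exact Group.isSolvable_of_ker_le_range K.subtype (QuotientGroup.mk' K) (by
        rw [QuotientGroup.ker_mk', Subgroup.range_subtype])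
    · -- at most two primes
      push Not at h3
      by_cases h1 : Nat.card G = 1
      · exact Cfsg.Agent.Lib.Char.isSolvable_of_card 2 3 0 0 Nat.prime_two Nat.prime_three (by simp [h1])
      obtain ⟨p, hp, hpd⟩ := Nat.exists_prime_and_dvd h1
      by_cases h2 : ∃ q : ℕ, q.Prime ∧ q ≠ p ∧ q ∣ Nat.card G
      · obtain ⟨q, hq, hqp, hqd⟩ := h2
        have hall : ∀ r : ℕ, r.Prime → r ∣ Nat.card G → r = p ∨ r = q := by
          intro r hr hrd
          by_contra h5
          push Not at h5
          exact h3 p q r hp hq hr hqp.symm (Ne.symm h5.1) (Ne.symm h5.2) hpd hqd hrd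
        exact Cfsg.Agent.Lib.Char.isSolvable_of_card p q _ _ hp hq
          (eq_prime_pow_mul_prime_pow hp hq hqp.symm hn0 hall)
      · push Not at h2
        obtain ⟨q, hqge, hq⟩ := Nat.exists_infinite_primes (p + 1)
        have hqp : q ≠ p := by omega
        have hall : ∀ r : ℕ, r.Prime → r ∣ Nat.card G → r = p ∨ r = q := by
          intro r hr hrd
          by_contra h5
          push Not at h5
          exact h2 r hr h5.1 hrd
        exact Cfsg.Agent.Lib.Char.isSolvable_of_card p q _ _ hp hq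
          (eq_prime_pow_mul_prime_pow hp hq hqp.symm hn0 hall)

end Cfsg.Agent.Lib.Hall
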